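import Cfsg.Agent.Lib.FusionExamples.HNSub.Tetra
import Cfsg.Agent.Lib.FusionExamples.HNSub.HNSxyA.Upper
import Cfsg.Agent.Lib.FusionExamples.HNSub.HNSxyzC.Upper

/-! The order of `HNSub.P` is at most `352 * (126000 * 12)`. -/

set_option autoImplicit false

namespace CfsgLib.FusionExamples.HNSub

open CfsgLib.SporRecognition.CosetCert
open Cfsg.Spor.HN (Gen)

theorem bound_xyz : Bound rels ([Gen.x, Gen.y, Gen.z].map fun a => [(a, true)]) (352 * (126000 * 12)) :=
  Bound.extend (Bound.extend bound_tetra [Gen.x, Gen.y] (by decide) 126000 (by norm_num) HNSxyA.tabU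
      HNSxyA.sect : Bound rels ([Gen.x, Gen.y].map fun a => [(a, true)]) (126000 * 12))
    [Gen.x, Gen.y, Gen.z] (by decide) 352 (by norm_num) HNSxyzC.tabU HNSxyzC.sect

theorem finite_P : Finite P ∧ Nat.card P ≤ 532224000 := by
  have h := bound_xyz
  have htop : wordSubgroup rels ([Gen.x, Gen.y, Gen.z].map fun a => [(a, true)]) = ⊤ := by
    rw [eq_top_iff, ← PresentedGroup.closure_range_of rels, Subgroup.closure_le]
    rintro _ ⟨a, rfl⟩
    cases a
    case t =>
      have h1 : (PresentedGroup.of Gen.t : P) = 1 := mk_extra (r := Cfsg.Spor.HN.t) (by simp [extra])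
      rw [h1]
      exact one_mem _
    all_goals
      refine Subgroup.subset_closure (List.mem_map.mpr ⟨[(_, true)], ?_, by simp [evalW_eq_prod]; rfl⟩)
      simp
  rw [Bound, htop, Subgroup.card_top] at h
  exact ⟨Nat.finite_of_card_ne_zero h.1, h.2.trans (by norm_num)⟩

end CfsgLib.FusionExamples.HNSub
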