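import Cfsg.Prelude.Def_Spor_HN

/-!
The group presented on the generators of `Cfsg.Spor.HN` by the ten relators among `x, y, z`
together with `t = 1`: the presentation of the double cover of the automorphism group of the
Higman–Sims group.
-/

set_option autoImplicit false

namespace CfsgLib.FusionExamples.HNSub

open Cfsg.Spor.HN (Gen x y z t)

/-- No Coxeter graph. -/
def edges : List (Gen × ℕ × Gen) := []

/-- The ten relators among `x, y, z`, and `t`. -/
def extra : List (FreeGroup Gen) := [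
  y ^ 6,
  (x ^ 2) * y * (x ^ 2) * (y⁻¹),
  (x⁻¹ * y⁻¹ * x * y) ^ 3,
  ((x⁻¹) * (y ^ 2) * x * (y ^ 3)) ^ 3,
  (x * y) ^ 8,
  (x * y * x * (y ^ 3)) ^ 4,
  z ^ 2,
  (z * x) ^ 2,
  (z⁻¹ * (y * x * y * x * (y ^ 2) * x * (y⁻¹))⁻¹ * z * (y * x * y * x * (y ^ 2) * x * (y⁻¹))) * ((x ^ 2)⁻¹),
  z * (((((y ^ 3) * x * y * x * y)⁻¹ * z * ((y ^ 3) * x * y * x * y)) * x) ^ 3),
  t ]

/-- The relators. -/
abbrev rels : Set (FreeGroup Gen) := Cfsg.Spor.coxRelators edges ∪ {r | r ∈ extra}

/-- The group presented by `rels`. -/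
abbrev P : Type := PresentedGroup rels

end CfsgLib.FusionExamples.HNSub
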