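import Cfsg.Agent.Lib.FusionExamples.HNSub.Structure
import Cfsg.Prelude.Def_Spor_Conway

/-!
The subgroup of HN generated by `x, y, z` is a copy of `HNSub.P`, so it has a normal subgroup of index
two which is a non-split double cover of HS.
-/

set_option autoImplicit false

namespace CfsgLib.FusionExamples.HNSub

open CfsgLib.Mathieu CfsgLib.Mathieu.HS
open Cfsg.Spor.HN (Gen)
open scoped commutatorElement

/-- The relators of HN. -/
abbrev hnRels : Set (FreeGroup Gen) :=
  Cfsg.Spor.coxRelators Cfsg.Spor.HN.edges ∪ {r | r ∈ Cfsg.Spor.HN.extra}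

/-- The images of the generators in HN. -/
def toHNImg : Gen → Cfsg.Spor.HN
  | .x => PresentedGroup.of .x
  | .y => PresentedGroup.of .y
  | .z => PresentedGroup.of .z
  | .t => 1

theorem toHNImg_extra : ∀ r ∈ extra, FreeGroup.lift toHNImg r = 1 := by
  have hn : ∀ (k : ℕ) (hk : k < Cfsg.Spor.HN.extra.length),
      PresentedGroup.mk hnRels (Cfsg.Spor.HN.extra[k]) = 1 :=
    fun k hk => PresentedGroup.one_of_mem (Or.inr (List.getElem_mem hk))
  have h0 := hn 0 (by decide)
  have h1 := hn 1 (by decide)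
  have h2 := hn 2 (by decide)
  have h3 := hn 3 (by decide)
  have h4 := hn 4 (by decide)
  have h5 := hn 5 (by decide)
  have h6 := hn 6 (by decide)
  have h7 := hn 7 (by decide)
  have h8 := hn 8 (by decide)
  have h9 := hn 9 (by decide)
  simp only [Cfsg.Spor.HN.extra, List.getElem_cons_succ, List.getElem_cons_zero, map_mul, map_pow, map_inv]
    at h0 h1 h2 h3 h4 h5 h6 h7 h8 h9
  intro r hr
  simp only [extra, List.mem_cons, List.not_mem_nil, or_false] at hr
  rcases hr with rfl | rfl | rfl | rfl | rfl | rfl | rfl | rfl | rfl | rfl | rfl <;>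
    simp only [map_mul, map_pow, map_inv, FreeGroup.lift_apply_of, toHNImg] <;> assumption

/-- The map to HN. -/
def toHN : P →* Cfsg.Spor.HN := PresentedGroup.toGroup (f := toHNImg) fun r hr => by
  rcases hr with hr | hr
  · rw [coxRelators_edges] at hr
    exact hr.elim
  · exact toHNImg_extra r hr

theorem toHN_of (a : Gen) : toHN (PresentedGroup.of a) = toHNImg a := PresentedGroup.toGroup.of _

/-- The subgroup generated by the images of `x`, `y`, `z`. -/
abbrev xyz : Subgroup Cfsg.Spor.HN :=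
  (Subgroup.closure ({Cfsg.Spor.HN.x, Cfsg.Spor.HN.y, Cfsg.Spor.HN.z} : Set (FreeGroup Gen))).map
    (PresentedGroup.mk hnRels)

theorem range_toHN : toHN.range = xyz := by
  rw [MonoidHom.range_eq_map, ← PresentedGroup.closure_range_of rels, MonoidHom.map_closure, xyz,
    MonoidHom.map_closure]
  apply le_antisymm
  · rw [Subgroup.closure_le]
    rintro _ ⟨_, ⟨a, rfl⟩, rfl⟩
    rw [toHN_of]
    cases a
    · exact Subgroup.subset_closure ⟨_, Or.inl rfl, rfl⟩
    · exact Subgroup.subset_closure ⟨_, Or.inr (Or.inl rfl), rfl⟩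
    · exact Subgroup.subset_closure ⟨_, Or.inr (Or.inr rfl), rfl⟩
    · exact one_mem _
  · rw [Subgroup.closure_le]
    rintro _ ⟨_, (rfl | rfl | rfl), rfl⟩
    · exact Subgroup.subset_closure ⟨_, ⟨Gen.x, rfl⟩, toHN_of _⟩
    · exact Subgroup.subset_closure ⟨_, ⟨Gen.y, rfl⟩, toHN_of _⟩
    · exact Subgroup.subset_closure ⟨_, ⟨Gen.z, rfl⟩, toHN_of _⟩

theorem eq_one_of_centralizes {g : Equiv.Perm (Fin 100)} (h : ∀ s : hsGroup, Commute (s : Equiv.Perm (Fin 100)) g) :
    g = 1 := by
  haveI := HS.transitive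
  have h0 : g 0 = 0 := by
    by_contra hne
    have key : ∀ S : Finset (Fin 100), 1 < S.card → g 0 ∈ S →
        (∀ a ∈ S, ∀ b ∈ S, ∃ s : hsGroup, s • (0 : Fin 100) = 0 ∧ s • a = b) → False := by
      intro S hS hmem htr
      obtain ⟨b, hb, hbne⟩ := Finset.exists_mem_ne hS (g 0)
      obtain ⟨s, hs0, hsb⟩ := htr _ hmem b hb
      apply hbne
      have := congrArg (fun σ : Equiv.Perm (Fin 100) => σ 0) (h s).eq
      simp only [Equiv.Perm.mul_apply] at this
      rw [show (s : Equiv.Perm (Fin 100)) 0 = 0 from hs0] at this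
      exact hsb.symm.trans this
    rcases HS.data.cover (g 0) hne with hm | hm
    · exact key near (by rw [card_near]; norm_num) hm HS.data.trans₁
    · exact key far (by rw [card_far]; norm_num) hm HS.data.trans₂
  refine Equiv.ext fun u => ?_
  obtain ⟨s, hs⟩ := MulAction.exists_smul_eq hsGroup (0 : Fin 100) u
  have := congrArg (fun σ : Equiv.Perm (Fin 100) => σ 0) (h s).eq
  simp only [Equiv.Perm.mul_apply, h0] at this
  have hs' : (s : Equiv.Perm (Fin 100)) 0 = u := hs
  rw [hs'] at this
  exact this.symm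

theorem parity_mul_inv_comm (a b : P) : a * b * a⁻¹ * b⁻¹ ∈ evenPart := by
  rw [evenPart, MonoidHom.mem_ker, map_mul, map_mul, map_mul, map_inv, map_inv,
    mul_comm (parity a) (parity b), mul_inv_cancel_right, mul_inv_cancel]

section

variable [Finite P] (hP : Nat.card P ≤ 532224000) {M : Type} [Group M] (ψ : Cfsg.Spor.HN →* M)
  (hψ2 : ψ (PresentedGroup.of Gen.x) ^ 2 ≠ 1)
  (hψc : ψ (PresentedGroup.of Gen.x) * ψ (PresentedGroup.of Gen.y) ≠
    ψ (PresentedGroup.of Gen.y) * ψ (PresentedGroup.of Gen.x))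

/-- The square of `x`. -/
def xsq : evenPart := ⟨PresentedGroup.of Gen.x ^ 2, pow_mem (MonoidHom.mem_ker.2 parity_x) 2⟩

theorem xsq_mem_ker : xsq ∈ sigma.ker := MonoidHom.mem_ker.2 (Subtype.ext phi_x_sq)

include hψ2 in
theorem toHN_xsq : toHN (PresentedGroup.of Gen.x ^ 2) ≠ 1 := fun h => hψ2 (by
  rw [map_pow, toHN_of] at h
  have h1 : (PresentedGroup.of Gen.x : Cfsg.Spor.HN) ^ 2 = 1 := h
  rw [← map_pow, h1, map_one])

include hP hψ2 in
theorem card_ker_sigma : Nat.card sigma.ker = 2 := by
  rcases (Nat.dvd_prime Nat.prime_two).1 (card_ker_sigma_dvd hP) with h | h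
  · exfalso
    have h1 : sigma.ker = ⊥ := Subgroup.card_eq_one.1 h
    have h2 := xsq_mem_ker
    rw [h1, Subgroup.mem_bot] at h2
    exact toHN_xsq ψ hψ2 (by rw [show PresentedGroup.of Gen.x ^ 2 = (1 : P) from congrArg Subtype.val h2, map_one])
  · exact h

include hP hψ2 hψc in
theorem toHN_injective : Function.Injective toHN := by
  haveI := simple_hs
  -- the kernel meets the even part trivially
  let K0 : Subgroup evenPart := toHN.ker.comap evenPart.subtype
  have hK0 : K0 = ⊥ := by
    rcases ((inferInstance : K0.Normal).map sigma sigma_surjective).eq_bot_or_eq_top with h | h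
    · have hle : K0 ≤ sigma.ker := fun g hg => by
        have h1 : sigma g ∈ K0.map sigma := Subgroup.mem_map_of_mem _ hg
        rwa [h, Subgroup.mem_bot] at h1
      rw [eq_bot_iff]
      intro g hg
      rw [Subgroup.mem_bot]
      by_contra hne
      have hc := card_ker_sigma hP ψ hψ2
      haveI : Fact (Nat.Prime 2) := ⟨Nat.prime_two⟩
      have hx := mem_zpowers_of_prime_card hc (g := (⟨g, hle hg⟩ : sigma.ker))
        (g' := ⟨xsq, xsq_mem_ker⟩) (fun e => hne (congrArg Subtype.val e))
      obtain ⟨n, hn⟩ := Subgroup.mem_zpowers_iff.1 hx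
      have hn' : g ^ n = xsq := congrArg Subtype.val hn
      have hxK : xsq ∈ K0 := hn' ▸ K0.zpow_mem hg n
      exact toHN_xsq ψ hψ2 hxK
    · exfalso
      have hsplit : ∀ g : evenPart, ∃ k ∈ K0, ∃ a ∈ Subgroup.center evenPart, g = k * a := fun g => by
        obtain ⟨k, hk, hkg⟩ : sigma g ∈ K0.map sigma := by rw [h]; exact Subgroup.mem_top _
        refine ⟨k, hk, k⁻¹ * g, (stem_sigma hP).2.1 ?_, by group⟩
        rw [MonoidHom.mem_ker, map_mul, map_inv, hkg, inv_mul_cancel]
      obtain ⟨k, hk, a, ha, hxe⟩ := hsplit ⟨PresentedGroup.of Gen.x, MonoidHom.mem_ker.2 parity_x⟩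
      obtain ⟨l, hl, b, hb, hye⟩ := hsplit ⟨PresentedGroup.of Gen.y, MonoidHom.mem_ker.2 parity_y⟩
      let F : evenPart →* M := (ψ.comp toHN).comp evenPart.subtype
      have hF : ∀ k ∈ K0, F k = 1 := fun k hk => by
        show ψ (toHN (k : P)) = 1
        rw [show toHN (k : P) = 1 from hk, map_one]
      apply hψc
      have ex : ψ (PresentedGroup.of Gen.x) = F a := by
        have : F ⟨PresentedGroup.of Gen.x, MonoidHom.mem_ker.2 parity_x⟩ = F a := by
          rw [hxe, map_mul, hF k hk, one_mul]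
        exact (congrArg ψ (toHN_of Gen.x).symm).trans this
      have ey : ψ (PresentedGroup.of Gen.y) = F b := by
        have : F ⟨PresentedGroup.of Gen.y, MonoidHom.mem_ker.2 parity_y⟩ = F b := by
          rw [hye, map_mul, hF l hl, one_mul]
        exact (congrArg ψ (toHN_of Gen.y).symm).trans this
      rw [ex, ey, ← map_mul, ← map_mul, Subgroup.mem_center_iff.1 hb a]
  have hdisj : ∀ g ∈ toHN.ker, g ∈ evenPart → g = 1 := fun g hg hge => by
    have h1 : (⟨g, hge⟩ : evenPart) ∈ K0 := hg
    rw [hK0, Subgroup.mem_bot] at h1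
    exact congrArg Subtype.val h1
  rw [← MonoidHom.ker_eq_bot_iff, eq_bot_iff]
  intro m hm
  rw [Subgroup.mem_bot]
  have hcomm : ∀ g : P, Commute g m := fun g => by
    have h1 : m * g * m⁻¹ * g⁻¹ ∈ toHN.ker := by
      have h2 : g * m⁻¹ * g⁻¹ ∈ toHN.ker := Subgroup.Normal.conj_mem inferInstance _ (inv_mem hm) g
      simpa [mul_assoc] using mul_mem hm h2
    have h3 := hdisj _ h1 (parity_mul_inv_comm m g)
    show g * m = m * g
    calc g * m = (m * g * m⁻¹ * g⁻¹) * (g * m) := by rw [h3, one_mul]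
      _ = m * g := by group
  have hphi : phi m = 1 := eq_one_of_centralizes fun s => by
    obtain ⟨g, hg⟩ := hsGroup_le_range s.2
    rw [← hg]
    exact (hcomm g).map phi
  refine hdisj m hm (MonoidHom.mem_ker.2 ?_)
  show Equiv.Perm.sign (phi m) = 1
  rw [hphi, map_one]

include hP hψ2 in
theorem doubleCover_evenPart : Cfsg.IsNonsplitDoubleCover evenPart Cfsg.Spor.HS := by
  have hc : Subgroup.center evenPart = sigma.ker := le_antisymm center_evenPart_le (stem_sigma hP).2.1
  have h2 : Nat.card (Subgroup.center evenPart) = 2 := by rw [hc]; exact card_ker_sigma hP ψ hψ2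
  refine ⟨h2, ?_, nonsplit_of_perfect commutator_evenPart fun h => ?_⟩
  · obtain ⟨e⟩ := HSLattice.tri_equiv
    exact ⟨((QuotientGroup.quotientMulEquivOfEq hc).trans
      (QuotientGroup.quotientKerEquivOfSurjective sigma sigma_surjective)).trans
      (e.symm.trans ((HSLattice.hsTri.equivMapOfInjective _ (Subgroup.subtype_injective _)).trans
        (MulEquiv.subgroupCongr HSLattice.hs_eq_map.symm)))⟩
  · rw [h, Subgroup.card_bot] at h2
    omega

/-- A double cover stays one under isomorphisms. -/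
theorem isNonsplitDoubleCover_congr {H H' S : Type*} [Group H] [Group H'] [Group S] (e : H ≃* H')
    (h : Cfsg.IsNonsplitDoubleCover H S) (hp : commutator H = ⊤) : Cfsg.IsNonsplitDoubleCover H' S := by
  obtain ⟨h2, ⟨f⟩, -⟩ := h
  have hc : (Subgroup.center H).map e.toMonoidHom = Subgroup.center H' := by
    ext u
    rw [Subgroup.mem_center_iff]
    constructor
    · rintro ⟨v, hv, rfl⟩ g
      obtain ⟨g, rfl⟩ := e.surjective g
      show e g * e v = e v * e g
      rw [← map_mul, ← map_mul, Subgroup.mem_center_iff.1 hv g]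
    · intro hu
      obtain ⟨v, rfl⟩ := e.surjective u
      exact ⟨v, Subgroup.mem_center_iff.2 fun g => e.injective (by rw [map_mul, map_mul]; exact hu _), rfl⟩
  have hcard : Nat.card (Subgroup.center H') = 2 := by
    rw [← hc, Nat.card_congr ((Subgroup.center H).equivMapOfInjective _ e.injective).toEquiv.symm, h2]
  refine ⟨hcard, ⟨(QuotientGroup.congr _ _ e hc).symm.trans f⟩, nonsplit_of_perfect ?_ fun hb => ?_⟩
  · rw [commutator_def, ← Subgroup.map_top_of_surjective e.toMonoidHom e.surjective,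
      ← Subgroup.map_commutator, ← commutator_def, hp, Subgroup.map_top_of_surjective _ e.surjective]
  · rw [hb, Subgroup.card_bot] at hcard
    omega

include hP hψ2 hψc in
theorem exists_doubleCover :
    ∃ K : Subgroup xyz, K.Normal ∧ K.index = 2 ∧ Cfsg.IsNonsplitDoubleCover K Cfsg.Spor.HS := by
  have hinj := toHN_injective hP ψ hψ2 hψc
  let e : P ≃* xyz := (MonoidHom.ofInjective hinj).trans (MulEquiv.subgroupCongr range_toHN)
  refine ⟨evenPart.map e.toMonoidHom, (inferInstance : evenPart.Normal).map _ e.surjective, ?_,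
    isNonsplitDoubleCover_congr (evenPart.equivMapOfInjective _ e.injective)
      (doubleCover_evenPart hP ψ hψ2) commutator_evenPart⟩
  rw [Subgroup.index_map_of_bijective (f := e.toMonoidHom) e.bijective]
  rw [evenPart, Subgroup.index_ker, MonoidHom.range_eq_top.2 ?_, Subgroup.card_top, Nat.card_eq_fintype_card]
  · rfl
  · intro u
    rcases Int.units_eq_one_or u with rfl | rfl
    · exact ⟨1, map_one _⟩
    · exact ⟨_, parity_z⟩

end

end CfsgLib.FusionExamples.HNSub
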