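import Cfsg.Agent.Lib.FusionExamples.HNSub.HS100Checks
import Cfsg.Agent.Lib.HSMult.Multiplier

/-!
The action of `HNSub.P` on 100 points: its image contains the simple group `hsGroup` and lies in the
automorphism group of the graph, and the parity of the image separates a subgroup of index two.
-/

set_option autoImplicit false
set_option maxRecDepth 100000

namespace CfsgLib.FusionExamples.HNSub

open CfsgLib.Mathieu CfsgLib.Mathieu.GraphAut CfsgLib.Mathieu.HS Equiv
open Cfsg.Spor.HN (Gen)

theorem node_mem : ∀ k, k < Data100.slp.length → perm7 100 (node k).1 ∈ phi.range := by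
  intro k
  induction k using Nat.strong_induction_on with
  | _ k ih =>
    intro hk
    have h := slp_ok
    simp only [slpOk, List.all_eq_true, List.mem_range, Bool.and_eq_true] at h
    obtain ⟨hp, hc⟩ := h k hk
    by_cases h3 : k < 3
    · rw [if_pos h3, beq_iff_eq] at hc
      rw [hc]
      interval_cases k
      · exact ⟨_, (phi_of .x).trans pX_perm7.symm⟩
      · exact ⟨_, (phi_of .y).trans pY_perm7.symm⟩
      · exact ⟨_, (phi_of .z).trans pZ_perm7.symm⟩
    · rw [if_neg h3] at hc
      simp only [Bool.and_eq_true, decide_eq_true_eq, List.all_eq_true, List.mem_range, beq_iff_eq] at hc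
      obtain ⟨⟨hi, hj⟩, happ⟩ := hc
      have hpi := (h _ (hi.trans hk)).1
      have hpj := (h _ (hj.trans hk)).1
      have he : perm7 100 (node k).1 =
          perm7 100 (node (node k).2.1).1 * perm7 100 (node (node k).2.2).1 :=
        Equiv.ext fun u => Fin.ext (by
          show _ = ((perm7 100 (node (node k).2.1).1) ((perm7 100 (node (node k).2.2).1) u) : ℕ)
          rw [perm7_apply hp, perm7_apply hpi, perm7_apply hpj, happ u.1 u.2])
      rw [he]
      exact mul_mem (ih _ hi (hi.trans hk)) (ih _ hj (hj.trans hk))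

theorem hsGroup_le_range : hsGroup ≤ phi.range := by
  refine (Subgroup.closure_le _).2 ?_
  rintro _ ⟨c, hc, rfl⟩
  obtain ⟨k, hk, rfl⟩ := List.getElem_of_mem hc
  have h := List.all_eq_true.1 outs_ok k (List.mem_range.2 hk)
  simp only [Bool.and_eq_true, decide_eq_true_eq, beq_iff_eq] at h
  rw [← List.getD_eq_getElem _ 0 hk, ← h.2]
  exact node_mem _ h.1

/-- Parity. -/
def parity : P →* ℤˣ := Perm.sign.comp phi

/-- The elements of even image. -/
def evenPart : Subgroup P := parity.ker

instance : evenPart.Normal := MonoidHom.normal_ker parity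

theorem pX_swaps : pX = (Data100.swapsX.map fun q => swap q.1 q.2).prod :=
  Equiv.ext (by decide +kernel)

theorem pY_swaps : pY = (Data100.swapsY.map fun q => swap q.1 q.2).prod :=
  Equiv.ext (by decide +kernel)

theorem pZ_swaps : pZ = (Data100.swapsZ.map fun q => swap q.1 q.2).prod :=
  Equiv.ext (by decide +kernel)

theorem parity_x : parity (PresentedGroup.of .x) = 1 := by
  rw [parity, MonoidHom.comp_apply, phi_of, img, pX_swaps, map_list_prod, List.map_map]
  decide +kernel

theorem parity_y : parity (PresentedGroup.of .y) = 1 := by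
  rw [parity, MonoidHom.comp_apply, phi_of, img, pY_swaps, map_list_prod, List.map_map]
  decide +kernel

theorem parity_z : parity (PresentedGroup.of .z) = -1 := by
  rw [parity, MonoidHom.comp_apply, phi_of, img, pZ_swaps, map_list_prod, List.map_map]
  decide +kernel

theorem phi_x_sq : phi (PresentedGroup.of .x ^ 2) = 1 := by
  rw [map_pow, phi_of]
  exact Equiv.ext (by decide +kernel)

/-- The even automorphisms are the simple group. -/
theorem mem_hsGroup_iff {g : Perm (Fin 100)} (hg : g ∈ rowAut 100 HSCert.rows) :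
    g ∈ hsGroup ↔ Perm.sign g = 1 := by
  refine ⟨fun h => CfsgLib.HSMult.sign_eq_one ⟨g, h⟩, fun hs => ?_⟩
  set E : Subgroup (Perm (Fin 100)) := rowAut 100 HSCert.rows ⊓ (Perm.sign : Perm (Fin 100) →* ℤˣ).ker
  have hle : hsGroup ≤ E := le_inf hsGroup_le fun a ha =>
    MonoidHom.mem_ker.2 (CfsgLib.HSMult.sign_eq_one ⟨a, ha⟩)
  have hcard : Nat.card E = 44352000 := by
    refine RankThree.card_eq_half inf_le_left (by rw [card_aut])
      (by rw [← card_hsGroup]; exact Subgroup.card_le_of_le hle)
      (perm7_mem_rowAut HSCert.oddGen_aut) fun h => ?_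
    have h1 := MonoidHom.mem_ker.1 h.2
    rw [perm7_oddGen, sign_oddProd] at h1
    exact absurd h1 (by decide)
  have heq : hsGroup = E := Subgroup.eq_of_le_of_card_ge hle (by rw [hcard, card_hsGroup])
  rw [heq]
  exact ⟨hg, MonoidHom.mem_ker.2 hs⟩

theorem phi_mem_hsGroup {g : P} (hg : g ∈ evenPart) : phi g ∈ hsGroup :=
  (mem_hsGroup_iff (phi_mem_rowAut g)).2 (MonoidHom.mem_ker.1 hg)

/-- The even part onto the simple group. -/
noncomputable def sigma : evenPart →* hsGroup :=
  (phi.comp evenPart.subtype).codRestrict hsGroup fun g => phi_mem_hsGroup g.2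

theorem sigma_surjective : Function.Surjective sigma := by
  intro h
  obtain ⟨g, hg⟩ := hsGroup_le_range h.2
  have hgE : g ∈ evenPart := MonoidHom.mem_ker.2 (by
    show Perm.sign (phi g) = 1
    rw [hg]
    exact CfsgLib.HSMult.sign_eq_one h)
  exact ⟨⟨g, hgE⟩, Subtype.ext hg⟩

end CfsgLib.FusionExamples.HNSub
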