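import Cfsg.Agent.Lib.FusionExamples.HNSub.Defs
import Cfsg.Agent.Lib.FusionExamples.HNSub.Data100
import Cfsg.Agent.Lib.HSMult.Multiplier

/-!
The action of `HNSub.P` on 100 points: its image contains the simple group `hsGroup` and lies in the
automorphism group of the graph, and the parity of the image separates a subgroup of index two.
-/

set_option autoImplicit false
set_option maxRecDepth 100000

namespace CfsgLib.FusionExamples.HNSub

open CfsgLib.Mathieu CfsgLib.Mathieu.GraphAut CfsgLib.Mathieu.HS Equiv
open Cfsg.Spor.HN (Gen)

/-- The map of a code. -/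
def fn (c : ℕ) (i : Fin 100) : Fin 100 := ⟨app7 c i.1 % 100, Nat.mod_lt _ (by omega)⟩

/-- The image of `x`. -/
def pX : Perm (Fin 100) where
  toFun := fn Data100.cX
  invFun := fn Data100.cXi
  left_inv := by unfold Function.LeftInverse; decide +kernel
  right_inv := by unfold Function.RightInverse Function.LeftInverse; decide +kernel

/-- The image of `y`. -/
def pY : Perm (Fin 100) where
  toFun := fn Data100.cY
  invFun := fn Data100.cYi
  left_inv := by unfold Function.LeftInverse; decide +kernel
  right_inv := by unfold Function.RightInverse Function.LeftInverse; decide +kernel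

/-- The image of `z`. -/
def pZ : Perm (Fin 100) where
  toFun := fn Data100.cZ
  invFun := fn Data100.cZi
  left_inv := by unfold Function.LeftInverse; decide +kernel
  right_inv := by unfold Function.RightInverse Function.LeftInverse; decide +kernel

/-- The images of the generators. -/
def img : Gen → Perm (Fin 100)
  | .x => pX
  | .y => pY
  | .z => pZ
  | .t => 1

theorem img_extra : ∀ r ∈ extra, ∀ i : Fin 100, FreeGroup.lift img r i = i := by
  decide +kernel

theorem coxRelators_edges : Cfsg.Spor.coxRelators edges = ∅ := by
  ext r
  simp [Cfsg.Spor.coxRelators, Cfsg.Spor.coxNodes, edges]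

/-- The action on 100 points. -/
def phi : P →* Perm (Fin 100) := PresentedGroup.toGroup (f := img) fun r hr => by
  rcases hr with hr | hr
  · rw [coxRelators_edges] at hr
    exact hr.elim
  · exact Equiv.ext fun i => img_extra r hr i

theorem phi_of (a : Gen) : phi (PresentedGroup.of a) = img a := PresentedGroup.toGroup.of _

theorem fn_perm7 {c : ℕ} (h : isPerm7 100 c = true) (p : Perm (Fin 100)) (hp : ∀ i, p i = fn c i) :
    perm7 100 c = p :=
  Equiv.ext fun i => Fin.ext (by
    rw [perm7_apply h, hp, fn]
    exact (Nat.mod_eq_of_lt (app7_lt h i.2)).symm)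

theorem pX_perm7 : perm7 100 Data100.cX = pX := fn_perm7 (by decide +kernel) _ fun _ => rfl
theorem pY_perm7 : perm7 100 Data100.cY = pY := fn_perm7 (by decide +kernel) _ fun _ => rfl
theorem pZ_perm7 : perm7 100 Data100.cZ = pZ := fn_perm7 (by decide +kernel) _ fun _ => rfl

theorem gens_aut100 : [Data100.cX, Data100.cY, Data100.cZ].all (isRowAut 100 HSCert.rows) = true := by
  decide +kernel

theorem phi_mem_rowAut (g : P) : phi g ∈ rowAut 100 HSCert.rows := by
  have h : ∀ c ∈ [Data100.cX, Data100.cY, Data100.cZ], perm7 100 c ∈ rowAut 100 HSCert.rows :=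
    fun c hc => perm7_mem_rowAut (List.all_eq_true.1 gens_aut100 c hc)
  have hle : (⊤ : Subgroup P) ≤ (rowAut 100 HSCert.rows).comap phi := by
    rw [← PresentedGroup.closure_range_of rels, Subgroup.closure_le]
    rintro _ ⟨a, rfl⟩
    show phi (PresentedGroup.of a) ∈ rowAut 100 HSCert.rows
    rw [phi_of]
    cases a
    · show pX ∈ _; rw [← pX_perm7]; exact h _ (by simp)
    · show pY ∈ _; rw [← pY_perm7]; exact h _ (by simp)
    · show pZ ∈ _; rw [← pZ_perm7]; exact h _ (by simp)
    · exact one_mem _
  exact hle (Subgroup.mem_top g)

/-- The entry of the straight-line program. -/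
def node (k : ℕ) : ℕ × ℕ × ℕ := Data100.slp.getD k (0, 0, 0)

/-- The check of the straight-line program. -/
def slpOk : Bool :=
  (List.range Data100.slp.length).all fun k =>
    isPerm7 100 (node k).1 &&
      (if k < 3 then (node k).1 == [Data100.cX, Data100.cY, Data100.cZ].getD k 0 else
        decide ((node k).2.1 < k) && decide ((node k).2.2 < k) &&
          (List.range 100).all fun i =>
            app7 (node k).1 i == app7 (node (node k).2.1).1 (app7 (node (node k).2.2).1 i))

theorem slp_ok : slpOk = true := by decide +kernel

theorem outs_ok : (List.range HSCert.gensP.length).all (fun k =>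
    decide (Data100.outs.getD k 0 < Data100.slp.length) &&
      (node (Data100.outs.getD k 0)).1 == HSCert.gensP.getD k 0) = true := by
  decide +kernel

end CfsgLib.FusionExamples.HNSub
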