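import Cfsg.Agent.Lib.FusionExamples.HNSub.Bound
import Cfsg.Agent.Lib.FusionExamples.HNSub.Embed

/-!
In HN, any homomorphism in which the square of `x` is nontrivial and `x`, `y` do not commute shows
that `⟨x, y, z⟩` has a non-split double cover of HS as a normal subgroup of index two.
-/

set_option autoImplicit false

namespace CfsgLib.FusionExamples.HNSub

open Cfsg.Spor.HN (Gen)

theorem exists_doubleCover_of_hom {M : Type} [Group M] (ψ : Cfsg.Spor.HN →* M)
    (hψ2 : ψ (PresentedGroup.of Gen.x) ^ 2 ≠ 1)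
    (hψc : ψ (PresentedGroup.of Gen.x) * ψ (PresentedGroup.of Gen.y) ≠
      ψ (PresentedGroup.of Gen.y) * ψ (PresentedGroup.of Gen.x)) :
    ∃ K : Subgroup xyz, K.Normal ∧ K.index = 2 ∧ Cfsg.IsNonsplitDoubleCover K Cfsg.Spor.HS := by
  obtain ⟨hfin, hP⟩ := finite_P
  exact exists_doubleCover hP ψ hψ2 hψc

end CfsgLib.FusionExamples.HNSub
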