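import Cfsg.Agent.Lib.FusionExamples.HNSub.HS100

/-! The even part of `HNSub.P` is perfect. -/

set_option autoImplicit false

namespace CfsgLib.FusionExamples.HNSub

open Cfsg.Spor.HN (Gen)
open scoped commutatorElement

theorem rel_at {M : Type*} [Group M] (f : P →* M) (k : ℕ) (hk : k < extra.length) :
    f (PresentedGroup.mk rels (extra[k])) = 1 := by
  rw [PresentedGroup.one_of_mem (rels := rels) (Or.inr (List.getElem_mem hk)), map_one]

/-- In a group satisfying the relations in which the images of `x` and `y` commute with each other and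
with their conjugates by the image of `z`, the images of `x` and `y` are trivial. -/
theorem eq_one_of_commute {Q : Type*} [Group Q] (a b c : Q) (hab : Commute a b)
    (h1 : b ^ 6 = 1) (h2 : a ^ 2 * b * a ^ 2 * b⁻¹ = 1) (h4 : (a⁻¹ * b ^ 2 * a * b ^ 3) ^ 3 = 1)
    (h5 : (a * b) ^ 8 = 1) (h7 : c ^ 2 = 1) (h8 : (c * a) ^ 2 = 1)
    (h10 : c * ((((b ^ 3) * a * b * a * b)⁻¹ * c * ((b ^ 3) * a * b * a * b)) * a) ^ 3 = 1) :
    a = 1 ∧ b = 1 := by
  have ha4 : a ^ 4 = 1 := by
    calc a ^ 4 = a ^ 2 * (a ^ 2 * b) * b⁻¹ := by group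
      _ = a ^ 2 * (b * a ^ 2) * b⁻¹ := by rw [(hab.pow_left 2).eq]
      _ = a ^ 2 * b * a ^ 2 * b⁻¹ := by group
      _ = 1 := h2
  have hb15 : b ^ 15 = 1 := by
    have hm : a⁻¹ * b ^ 2 * a * b ^ 3 = b ^ 5 := by
      calc a⁻¹ * b ^ 2 * a * b ^ 3 = a⁻¹ * (b ^ 2 * a) * b ^ 3 := by group
        _ = a⁻¹ * (a * b ^ 2) * b ^ 3 := by rw [(hab.pow_right 2).eq]
        _ = b ^ 5 := by group
    rw [hm, ← pow_mul] at h4
    exact h4
  have hb8 : b ^ 8 = 1 := by
    rw [hab.mul_pow, show (8 : ℕ) = 4 * 2 from rfl, pow_mul a, ha4, one_pow, one_mul] at h5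
    exact h5
  have hb : b = 1 := by
    calc b = b ^ 16 * (b ^ 15)⁻¹ := by group
      _ = 1 := by rw [hb15, show (16 : ℕ) = 8 * 2 from rfl, pow_mul, hb8, one_pow, inv_one, one_mul]
  subst hb
  refine ⟨?_, rfl⟩
  have hc : c⁻¹ = c := inv_eq_of_mul_eq_one_right (by rw [← pow_two, h7])
  have hcac : c * a = a⁻¹ * c := by
    calc c * a = (c * a) ^ 2 * a⁻¹ * c⁻¹ := by simp [pow_two, mul_assoc]
      _ = a⁻¹ * c := by rw [h8, hc, one_mul]
  have hw : (((1 : Q) ^ 3) * a * 1 * a * 1)⁻¹ * c * (((1 : Q) ^ 3) * a * 1 * a * 1) = c := by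
    calc (((1 : Q) ^ 3) * a * 1 * a * 1)⁻¹ * c * (((1 : Q) ^ 3) * a * 1 * a * 1)
        = a⁻¹ * a⁻¹ * (c * a) * a := by group
      _ = a⁻¹ * a⁻¹ * (a⁻¹ * c) * a := by rw [hcac]
      _ = a⁻¹ * a⁻¹ * a⁻¹ * (c * a) := by group
      _ = a⁻¹ * a⁻¹ * a⁻¹ * (a⁻¹ * c) := by rw [hcac]
      _ = (a ^ 4)⁻¹ * c := by group
      _ = c := by rw [ha4, inv_one, one_mul]
  rw [hw, show (3 : ℕ) = 1 + 2 from rfl, pow_add, h8, mul_one, pow_one, ← mul_assoc, ← pow_two, h7,
    one_mul] at h10
  exact h10

theorem commutator_evenPart : commutator evenPart = ⊤ := by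
  set N : Subgroup P := ⁅evenPart, evenPart⁆
  haveI : N.Normal := Subgroup.commutator_normal _ _
  have hmap : (commutator evenPart).map evenPart.subtype = N := Subgroup.map_subtype_commutator evenPart
  suffices h : evenPart ≤ N by
    refine Subgroup.map_injective evenPart.subtype_injective ?_
    rw [hmap, ← MonoidHom.range_eq_map, Subgroup.range_subtype]
    exact le_antisymm (Subgroup.commutator_le_self _) h
  let f : P →* P ⧸ N := QuotientGroup.mk' N
  have hx : PresentedGroup.of Gen.x ∈ evenPart := MonoidHom.mem_ker.2 parity_x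
  have hy : PresentedGroup.of Gen.y ∈ evenPart := MonoidHom.mem_ker.2 parity_y
  have hab : Commute (f (PresentedGroup.of Gen.x)) (f (PresentedGroup.of Gen.y)) := by
    show _ * _ = _ * _
    rw [← commutatorElement_eq_one_iff_mul_comm, ← map_commutatorElement]
    exact (QuotientGroup.eq_one_iff _).2 (Subgroup.commutator_mem_commutator hx hy)
  have h6 : f (PresentedGroup.of Gen.y) ^ 6 = 1 := by
    have h := rel_at f 0 (by decide)
    simp only [extra, List.getElem_cons_succ, List.getElem_cons_zero, map_mul, map_pow, map_inv] at h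
    exact h
  have h2 : f (PresentedGroup.of Gen.x) ^ 2 * f (PresentedGroup.of Gen.y) * f (PresentedGroup.of Gen.x) ^ 2 * (f (PresentedGroup.of Gen.y))⁻¹ = 1 := by
    have h := rel_at f 1 (by decide)
    simp only [extra, List.getElem_cons_succ, List.getElem_cons_zero, map_mul, map_pow, map_inv] at h
    exact h
  have h4 : ((f (PresentedGroup.of Gen.x))⁻¹ * f (PresentedGroup.of Gen.y) ^ 2 * f (PresentedGroup.of Gen.x) * f (PresentedGroup.of Gen.y) ^ 3) ^ 3 = 1 := by
    have h := rel_at f 3 (by decide)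
    simp only [extra, List.getElem_cons_succ, List.getElem_cons_zero, map_mul, map_pow, map_inv] at h
    exact h
  have h5 : (f (PresentedGroup.of Gen.x) * f (PresentedGroup.of Gen.y)) ^ 8 = 1 := by
    have h := rel_at f 4 (by decide)
    simp only [extra, List.getElem_cons_succ, List.getElem_cons_zero, map_mul, map_pow, map_inv] at h
    exact h
  have h7 : f (PresentedGroup.of Gen.z) ^ 2 = 1 := by
    have h := rel_at f 6 (by decide)
    simp only [extra, List.getElem_cons_succ, List.getElem_cons_zero, map_mul, map_pow, map_inv] at h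
    exact h
  have h8 : (f (PresentedGroup.of Gen.z) * f (PresentedGroup.of Gen.x)) ^ 2 = 1 := by
    have h := rel_at f 7 (by decide)
    simp only [extra, List.getElem_cons_succ, List.getElem_cons_zero, map_mul, map_pow, map_inv] at h
    exact h
  have h10 : f (PresentedGroup.of Gen.z) * ((((f (PresentedGroup.of Gen.y) ^ 3) * f (PresentedGroup.of Gen.x) * f (PresentedGroup.of Gen.y) * f (PresentedGroup.of Gen.x) * f (PresentedGroup.of Gen.y))⁻¹ * f (PresentedGroup.of Gen.z) * ((f (PresentedGroup.of Gen.y) ^ 3) * f (PresentedGroup.of Gen.x) * f (PresentedGroup.of Gen.y) * f (PresentedGroup.of Gen.x) * f (PresentedGroup.of Gen.y))) * f (PresentedGroup.of Gen.x)) ^ 3 = 1 := by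
    have h := rel_at f 9 (by decide)
    simp only [extra, List.getElem_cons_succ, List.getElem_cons_zero, map_mul, map_pow, map_inv] at h
    exact h
  have ft : f (PresentedGroup.of Gen.t) = 1 := by
    have h := rel_at f 10 (by decide)
    simp only [extra, List.getElem_cons_succ, List.getElem_cons_zero, map_mul, map_pow, map_inv] at h
    exact h
  obtain ⟨fx, fy⟩ := eq_one_of_commute (f (PresentedGroup.of Gen.x)) (f (PresentedGroup.of Gen.y))
    (f (PresentedGroup.of Gen.z)) hab h6 h2 h4 h5 h7 h8 h10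
  have fz2 := h7
  have hall : (⊤ : Subgroup P) ≤ (Subgroup.zpowers (f (PresentedGroup.of Gen.z))).comap f := by
    rw [← PresentedGroup.closure_range_of rels, Subgroup.closure_le]
    rintro _ ⟨a, rfl⟩
    show f (PresentedGroup.of a) ∈ Subgroup.zpowers (f (PresentedGroup.of Gen.z))
    cases a
    · rw [fx]; exact one_mem _
    · rw [fy]; exact one_mem _
    · exact Subgroup.mem_zpowers _
    · rw [ft]; exact one_mem _
  intro k hk
  obtain ⟨n, hn⟩ := Subgroup.mem_zpowers_iff.1 (hall (Subgroup.mem_top k))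
  rcases Int.even_or_odd' n with ⟨m, rfl | rfl⟩
  · have h2 : f (PresentedGroup.of Gen.z) ^ (2 : ℤ) = 1 := by rw [zpow_two, ← pow_two, fz2]
    rw [zpow_mul, h2, one_zpow] at hn
    exact (QuotientGroup.eq_one_iff k).1 hn.symm
  · have h2 : f (PresentedGroup.of Gen.z) ^ (2 : ℤ) = 1 := by rw [zpow_two, ← pow_two, fz2]
    rw [zpow_add, zpow_mul, h2, one_zpow, one_mul, zpow_one] at hn
    have hmem : (PresentedGroup.of Gen.z)⁻¹ * k ∈ evenPart :=
      Subgroup.commutator_le_self evenPart (QuotientGroup.eq.1 hn)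
    have hz : PresentedGroup.of Gen.z ∈ evenPart := by
      have := mul_mem hk (inv_mem hmem)
      simpa [mul_assoc] using this
    have := (MonoidHom.mem_ker.1 hz).symm.trans parity_z
    exact absurd this (by decide)

end CfsgLib.FusionExamples.HNSub
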