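import Cfsg.Agent.Lib.FusionExamples.HNSub.Perfect
import Cfsg.Prelude.Def_SporadicB

/-!
Given the bound on the order of `HNSub.P` and a homomorphism of HN in which the square of `x` is
nontrivial and `x`, `y` do not commute, the subgroup of HN generated by `x, y, z` is isomorphic to
`HNSub.P`, and it has a normal subgroup of index two that is a non-split double cover of HS.
-/

set_option autoImplicit false

namespace CfsgLib.FusionExamples.HNSub

open CfsgLib.Mathieu CfsgLib.Mathieu.HS
open Cfsg.Spor.HN (Gen)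
open scoped commutatorElement

theorem simple_hs : IsSimpleGroup hsGroup := isSimpleGroup_hsGroup

theorem center_hs : Subgroup.center hsGroup = ⊥ := by
  haveI := simple_hs
  rcases (inferInstance : (Subgroup.center hsGroup).Normal).eq_bot_or_eq_top with h | h
  · exact h
  · exfalso
    have hc : commutator hsGroup = ⊥ := (commutator_eq_bot_iff_center_eq_top _).mpr h
    have hb := CfsgLib.HSMult.commutator_hs
    rw [hc] at hb
    exact bot_ne_top hb

/-- A group of order at most six that is its own commutator subgroup is trivial. -/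
theorem subsingleton_of_perfect_le_six {Q : Type*} [Group Q] [Finite Q] (h6 : Nat.card Q ≤ 6)
    (hp : commutator Q = ⊤) : Subsingleton Q := by
  by_contra hns
  rw [not_subsingleton_iff_nontrivial] at hns
  have hmeq : ∀ (M : Subgroup Q) [M.Normal], IsMulCommutative (Q ⧸ M) → M = ⊤ := fun M _ hc => by
    have hb : commutator (Q ⧸ M) = ⊥ := commutator_eq_bot (G := Q ⧸ M)
    have hm : (commutator Q).map (QuotientGroup.mk' M) = commutator (Q ⧸ M) := by
      rw [commutator_def, commutator_def, Subgroup.map_commutator,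
        Subgroup.map_top_of_surjective _ (QuotientGroup.mk'_surjective M)]
    rw [hp, hb, Subgroup.map_eq_bot_iff, QuotientGroup.ker_mk'] at hm
    exact top_le_iff.1 hm
  have h1 : 1 < Nat.card Q := Finite.one_lt_card
  have hnc : ¬ IsMulCommutative Q := fun hc => by
    have hb := (commutator_eq_bot_iff Q).2 hc
    rw [hp] at hb
    exact top_ne_bot hb
  interval_cases hn : Nat.card Q
  · haveI := isCyclic_of_prime_card (hp := ⟨Nat.prime_two⟩) hn
    exact hnc ⟨⟨fun u v => (IsCyclic.commGroup (α := Q)).mul_comm u v⟩⟩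
  · haveI := isCyclic_of_prime_card (hp := ⟨Nat.prime_three⟩) hn
    exact hnc ⟨⟨fun u v => (IsCyclic.commGroup (α := Q)).mul_comm u v⟩⟩
  · haveI : Fact (Nat.Prime 2) := ⟨Nat.prime_two⟩
    exact hnc ⟨⟨IsPGroup.commutative_of_card_eq_prime_sq (p := 2) (by rw [hn]; norm_num)⟩⟩
  · haveI := isCyclic_of_prime_card (hp := ⟨(by norm_num : Nat.Prime 5)⟩) hn
    exact hnc ⟨⟨fun u v => (IsCyclic.commGroup (α := Q)).mul_comm u v⟩⟩
  · obtain ⟨g, hg⟩ := exists_prime_orderOf_dvd_card' (G := Q) 3 (hp := ⟨Nat.prime_three⟩) (by omega)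
    have hi : (Subgroup.zpowers g).index = 2 := by
      have h := Subgroup.card_mul_index (Subgroup.zpowers g)
      rw [Nat.card_zpowers, hg, hn] at h
      omega
    haveI := Subgroup.normal_of_index_eq_two hi
    have hq : Nat.card (Q ⧸ Subgroup.zpowers g) = 2 := hi
    haveI := isCyclic_of_prime_card (hp := ⟨Nat.prime_two⟩) hq
    have ht := hmeq (Subgroup.zpowers g) ⟨⟨fun u v => (IsCyclic.commGroup (α := Q ⧸ Subgroup.zpowers g)).mul_comm u v⟩⟩
    rw [ht, Subgroup.index_top] at hi
    omega

variable [Finite P] (hP : Nat.card P ≤ 532224000)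

include hP in
theorem card_ker_sigma_le : Nat.card sigma.ker ≤ 6 := by
  have h2 : evenPart.index = 2 := by
    rw [evenPart, Subgroup.index_ker]
    have : parity.range = ⊤ := by
      rw [eq_top_iff]
      intro u _
      rcases Int.units_eq_one_or u with rfl | rfl
      · exact one_mem _
      · exact ⟨_, parity_z⟩
    rw [this, Subgroup.card_top, Nat.card_eq_fintype_card]
    rfl
  have hE := Subgroup.card_mul_index evenPart
  have hk := Subgroup.card_mul_index sigma.ker
  rw [Subgroup.index_ker, MonoidHom.range_eq_top.2 sigma_surjective, Subgroup.card_top, card_hsGroup] at hk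
  rw [h2] at hE
  omega

include hP in
theorem stem_sigma : Cfsg.IsStemExtension sigma := by
  refine ⟨sigma_surjective, ?_, by rw [commutator_evenPart]; exact le_top⟩
  haveI := simple_hs
  set A := sigma.ker with hA
  -- the action on the kernel
  let act : evenPart →* Equiv.Perm A :=
    MonoidHom.comp (MulAut.toPerm A) (MulAut.conjNormal (H := A))
  have hker : ∀ g : evenPart, g ∈ act.ker → ∀ a ∈ A, g * a * g⁻¹ = a := fun g hg a ha => by
    have h := congrArg (fun σ : Equiv.Perm A => σ ⟨a, ha⟩) (MonoidHom.mem_ker.1 hg)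
    exact congrArg Subtype.val h
  have hcA := card_ker_sigma_le hP
  have hidx : act.ker.index ≤ 720 := by
    rw [Subgroup.index_ker]
    refine (Nat.card_le_card_of_injective _ Subtype.val_injective).trans ?_
    rw [Nat.card_perm]
    exact (Nat.factorial_le hcA).trans (by decide)
  have hC : act.ker.map sigma = ⊤ := by
    rcases ((inferInstance : act.ker.Normal).map sigma sigma_surjective).eq_bot_or_eq_top with h | h
    · exfalso
      have hle : act.ker ≤ A := fun g hg => by
        have h1 : sigma g ∈ act.ker.map sigma := Subgroup.mem_map_of_mem _ hg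
        rwa [h, Subgroup.mem_bot] at h1
      have hi : A.index ≤ act.ker.index :=
        Nat.le_of_dvd (Nat.pos_of_ne_zero Subgroup.index_ne_zero_of_finite) (Subgroup.index_dvd_of_le hle)
      have hAi : A.index = 44352000 := by
        show sigma.ker.index = 44352000
        rw [Subgroup.index_ker, MonoidHom.range_eq_top.2 sigma_surjective, Subgroup.card_top, card_hsGroup]
      omega
    · exact h
  -- the quotient by the centraliser is a perfect image of the kernel
  let Q := evenPart ⧸ act.ker
  have hsurj : Function.Surjective (fun a : A => ((a : evenPart) : Q)) := by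
    intro q
    obtain ⟨g, rfl⟩ := QuotientGroup.mk_surjective q
    obtain ⟨c, hc, hcg⟩ : sigma g ∈ act.ker.map sigma := by rw [hC]; exact Subgroup.mem_top _
    refine ⟨⟨g * c⁻¹, ?_⟩, ?_⟩
    · rw [MonoidHom.mem_ker, map_mul, map_inv, hcg, mul_inv_cancel]
    · show ((g * c⁻¹ : evenPart) : Q) = (g : Q)
      rw [QuotientGroup.mk_mul, QuotientGroup.mk_inv, (QuotientGroup.eq_one_iff c).2 hc, inv_one, mul_one]
  have hQ6 : Nat.card Q ≤ 6 := (Nat.card_le_card_of_surjective _ hsurj).trans hcA
  have hQp : commutator Q = ⊤ := by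
    rw [eq_top_iff, ← Subgroup.map_top_of_surjective _ (QuotientGroup.mk'_surjective act.ker),
      ← commutator_evenPart, commutator_def, commutator_def, Subgroup.map_commutator]
    exact Subgroup.commutator_mono le_top le_top
  haveI := subsingleton_of_perfect_le_six hQ6 hQp
  intro a ha
  rw [Subgroup.mem_center_iff]
  intro g
  have hg : g ∈ act.ker := (QuotientGroup.eq_one_iff g).1 (Subsingleton.elim _ _)
  calc g * a = g * a * g⁻¹ * g := by group
    _ = a * g := by rw [hker g hg a ha]

include hP in
theorem card_ker_sigma_dvd : Nat.card sigma.ker ∣ 2 :=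
  CfsgLib.HSMult.card_ker_dvd_two (stem_sigma hP)

theorem center_evenPart_le : Subgroup.center evenPart ≤ sigma.ker := by
  intro c hc
  rw [MonoidHom.mem_ker, ← Subgroup.mem_bot, ← center_hs, Subgroup.mem_center_iff]
  intro s
  obtain ⟨g, rfl⟩ := sigma_surjective s
  rw [← map_mul, ← map_mul, Subgroup.mem_center_iff.1 hc g]

theorem nonsplit_of_perfect {H : Type*} [Group H] (hp : commutator H = ⊤) (hne : Subgroup.center H ≠ ⊥)
    (L : Subgroup H) : ¬ (Subgroup.center H).IsComplement' L := by
  intro hL
  have hsplit : ∀ g : H, ∃ z ∈ Subgroup.center H, ∃ l ∈ L, g = z * l := fun g => by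
    obtain ⟨⟨z, l⟩, h, -⟩ := hL.existsUnique g
    exact ⟨z, z.2, l, l.2, h.symm⟩
  have hcomm : commutator H ≤ L := by
    rw [commutator_def, Subgroup.commutator_le]
    intro u _ v _
    obtain ⟨z, hz, a, ha, rfl⟩ := hsplit u
    obtain ⟨w, hw, b, hb, rfl⟩ := hsplit v
    have hz' : ∀ g, g * z = z * g := Subgroup.mem_center_iff.1 hz
    have hw' : ∀ g, g * w = w * g := Subgroup.mem_center_iff.1 hw
    have e : ⁅z * a, w * b⁆ = ⁅a, b⁆ := by
      simp only [commutatorElement_def, _root_.mul_inv_rev]
      calc z * a * (w * b) * (a⁻¹ * z⁻¹) * (b⁻¹ * w⁻¹)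
          = z * (a * w) * (b * a⁻¹ * (z⁻¹ * b⁻¹)) * w⁻¹ := by group
        _ = z * (w * a) * (b * a⁻¹ * (b⁻¹ * z⁻¹)) * w⁻¹ := by
            rw [hw' a, show z⁻¹ * b⁻¹ = b⁻¹ * z⁻¹ from by
              rw [← _root_.mul_inv_rev, ← _root_.mul_inv_rev, hz' b]]
        _ = z * w * (a * b * a⁻¹ * b⁻¹) * z⁻¹ * w⁻¹ := by group
        _ = (a * b * a⁻¹ * b⁻¹) := by
            have h3 : ∀ g, g * (z * w) = z * w * g := fun g => by
              rw [← mul_assoc, hz', mul_assoc, hw', mul_assoc]
            rw [← h3]
            calc a * b * a⁻¹ * b⁻¹ * (z * w) * z⁻¹ * w⁻¹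
                = a * b * a⁻¹ * b⁻¹ * (z * (w * z⁻¹)) * w⁻¹ := by group
              _ = a * b * a⁻¹ * b⁻¹ := by rw [← hw' z⁻¹]; group
    rw [e, commutatorElement_def]
    exact mul_mem (mul_mem (mul_mem ha hb) (inv_mem ha)) (inv_mem hb)
  rw [hp, top_le_iff] at hcomm
  exact hne (Subgroup.isComplement'_top_right.1 (hcomm ▸ hL))

end CfsgLib.FusionExamples.HNSub
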