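import Cfsg.Agent.Lib.FusionExamples.HNSub.Defs
import Cfsg.Agent.Lib.SporRecognition.CosetCert.Upper

/-! Two elements satisfying the relations of the tetrahedral group generate at most twelve elements. -/

set_option autoImplicit false

namespace CfsgLib.FusionExamples.HNSub

open CfsgLib.SporRecognition.CosetCert
open Cfsg.Spor.HN (Gen)

theorem card_closure_pair_le_twelve {G : Type*} [Group G] {a b : G} (ha : a ^ 3 = 1) (hb : b ^ 2 = 1)
    (hab : (a * b) ^ 3 = 1) :
    Nat.card (Subgroup.closure ({a, b} : Set G)) ≠ 0 ∧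
      Nat.card (Subgroup.closure ({a, b} : Set G)) ≤ 12 := by
  set c := a * b * a⁻¹ with hc
  set d := a⁻¹ * b * a with hd
  have hbi : b⁻¹ = b := inv_eq_of_mul_eq_one_right (by rw [← pow_two, hb])
  have hai : a⁻¹ = a * a := inv_eq_of_mul_eq_one_right (by rw [← mul_assoc, ← pow_three', ha])
  have h6 : a * b * (a * b) * (a * b) = 1 := by rw [← pow_three', hab]
  have hbab : b * a * b = a⁻¹ * b * a⁻¹ := by
    calc b * a * b = a⁻¹ * (a * b * (a * b) * (a * b)) * b⁻¹ * a⁻¹ := by group
      _ = a⁻¹ * b * a⁻¹ := by rw [h6, hbi]; group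
  have hbc : b * c = d := by
    calc b * c = (b * a * b) * a⁻¹ := by rw [hc]; group
      _ = a⁻¹ * b * (a⁻¹ * a⁻¹) := by rw [hbab]; group
      _ = d := by rw [hd]; congr 1; rw [← _root_.mul_inv_rev, ← hai, inv_inv]
  have hbd : b * d = c := by
    calc b * d = b * (b * c) := by rw [hbc]
      _ = c := by rw [← mul_assoc, ← pow_two, hb, one_mul]
  let v : Fin 4 → G := ![1, b, c, d]
  let f : Fin 4 × Fin 3 → G := fun p => v p.1 * a ^ (p.2 : ℕ)
  have hf : ∀ (i : Fin 4) (k : ℕ), v i * a ^ k ∈ Set.range f := fun i k =>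
    ⟨(i, ⟨k % 3, Nat.mod_lt _ (by omega)⟩), by
      show v i * a ^ (k % 3) = v i * a ^ k
      rw [← pow_eq_pow_mod k ha]⟩
  have hA : ∀ y ∈ Set.range f, a * y ∈ Set.range f := by
    rintro _ ⟨⟨i, j⟩, rfl⟩
    have h : ∃ i', a * v i = v i' * a := by
      have had : a * d = b * a := by rw [hd]; group
      have hac : a * c = d * a := by
        rw [hc, hd]
        calc a * (a * b * a⁻¹) = (a * a) * b * a⁻¹ := by group
          _ = a⁻¹ * b * (a * a) := by rw [← hai]
          _ = a⁻¹ * b * a * a := by group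
      fin_cases i
      · exact ⟨0, by simp [v]⟩
      · exact ⟨2, by simp [v, hc]⟩
      · exact ⟨3, by simpa [v] using hac⟩
      · exact ⟨1, by simpa [v] using had⟩
    obtain ⟨i', hi'⟩ := h
    show a * (v i * a ^ (j : ℕ)) ∈ Set.range f
    rw [← mul_assoc, hi', mul_assoc, ← pow_succ']
    exact hf _ _
  have hB : ∀ y ∈ Set.range f, b * y ∈ Set.range f := by
    rintro _ ⟨⟨i, j⟩, rfl⟩
    have h : ∃ i', b * v i = v i' := by
      fin_cases i
      · exact ⟨1, by simp [v]⟩
      · exact ⟨0, by simp [v, ← pow_two, hb]⟩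
      · exact ⟨3, by simpa [v] using hbc⟩
      · exact ⟨2, by simpa [v] using hbd⟩
    obtain ⟨i', hi'⟩ := h
    show b * (v i * a ^ (j : ℕ)) ∈ Set.range f
    rw [← mul_assoc, hi']
    exact hf _ _
  have h1 : (1 : G) ∈ Set.range f := ⟨(0, 0), by simp [f, v]⟩
  have hsub : (Subgroup.closure ({a, b} : Set G) : Set G) ⊆ Set.range f := by
    intro g hg
    induction hg using Subgroup.closure_induction_left with
    | one => exact h1
    | mul_left x hx y _ hy =>
      rcases hx with rfl | hx
      · exact hA y hy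
      · rw [Set.mem_singleton_iff] at hx
        exact hx ▸ hB y hy
    | inv_mul_cancel x hx y _ hy =>
      rcases hx with rfl | hx
      · rw [hai, mul_assoc]
        exact hA _ (hA y hy)
      · rw [Set.mem_singleton_iff] at hx
        subst hx
        rw [hbi]
        exact hB y hy
  have hfin : (Subgroup.closure ({a, b} : Set G) : Set G).Finite := (Set.finite_range f).subset hsub
  haveI : Finite (Subgroup.closure ({a, b} : Set G)) := hfin.to_subtype
  refine ⟨Nat.card_pos.ne', ?_⟩
  rw [← SetLike.coe_sort_coe, Nat.card_coe_set_eq]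
  refine (Set.ncard_le_ncard hsub (Set.finite_range f)).trans ?_
  rw [← Set.image_univ]
  refine (Set.ncard_image_le Set.finite_univ).trans ?_
  simp [Set.ncard_univ]

theorem mk_extra {r : FreeGroup Gen} (h : r ∈ extra) : PresentedGroup.mk rels r = 1 :=
  PresentedGroup.one_of_mem (Or.inr h)

/-- The subgroup under the enumeration of `⟨x, y⟩` has at most twelve elements. -/
theorem bound_tetra :
    Bound rels [[(Gen.x, false), (Gen.y, true), (Gen.y, true), (Gen.x, true)],
      [(Gen.y, true), (Gen.y, true), (Gen.y, true)]] 12 := by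
  set x : P := PresentedGroup.of Gen.x with hx
  set y : P := PresentedGroup.of Gen.y with hy
  have hy6 : y ^ 6 = 1 := by
    have h := mk_extra (r := Cfsg.Spor.HN.y ^ 6) (by simp [extra])
    rwa [map_pow] at h
  have hr4 : (x⁻¹ * y ^ 2 * x * y ^ 3) ^ 3 = 1 := by
    have h := mk_extra (r := ((Cfsg.Spor.HN.x⁻¹) * (Cfsg.Spor.HN.y ^ 2) * Cfsg.Spor.HN.x *
      (Cfsg.Spor.HN.y ^ 3)) ^ 3) (by simp [extra])
    simp only [map_pow, map_mul, map_inv] at h
    exact h
  have key := card_closure_pair_le_twelve (a := x⁻¹ * y * y * x) (b := y * y * y) ?_ ?_ ?_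
  · rw [Bound, wordSubgroup]
    have hset : {g | g ∈ ([[(Gen.x, false), (Gen.y, true), (Gen.y, true), (Gen.x, true)],
        [(Gen.y, true), (Gen.y, true), (Gen.y, true)]].map (evalW (PresentedGroup.of (rels := rels))))} =
        ({x⁻¹ * y * y * x, y * y * y} : Set P) := by
      ext g
      simp [evalW_eq_prod, hx, hy, mul_assoc]
    rw [hset]
    exact key
  · calc (x⁻¹ * y * y * x) ^ 3 = x⁻¹ * y ^ 6 * x := by simp [pow_succ, mul_assoc]
      _ = 1 := by rw [hy6]; group
  · calc (y * y * y) ^ 2 = y ^ 6 := by simp [pow_succ, mul_assoc]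
      _ = 1 := hy6
  · calc (x⁻¹ * y * y * x * (y * y * y)) ^ 3 = (x⁻¹ * y ^ 2 * x * y ^ 3) ^ 3 := by simp [pow_succ, mul_assoc]
      _ = 1 := hr4

end CfsgLib.FusionExamples.HNSub
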